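import Mathlib
import Cfsg.Agent.S3742

set_option autoImplicit false

namespace Cfsg.Agent.Lib.Helper92.G23

open QuaternionGroup

variable {X : Type*} [Group X] [Finite X]

theorem aut_dec : ∀ u : QuaternionGroup 2, (∀ v, v * u = u * v) → u = 1 ∨ u = a 2 := by decide

theorem aut_dec2 : ∀ v : QuaternionGroup 2, v * a 2 = a 2 * v := by decide

theorem exists_hom_S4 (Q : Subgroup X) [Q.Normal] (e : ↥Q ≃* QuaternionGroup 2)
    (hC : Subgroup.centralizer (Q : Set X) ≤ Q) :
    ∃ f : X →* Equiv.Perm (Fin 4), f.ker ≤ Q ∧ Nat.card f.ker = 2 := by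
  obtain ⟨E⟩ := Cfsg.Agent.S3742.result
  let f : X →* Equiv.Perm (Fin 4) :=
    (E.toMonoidHom.comp (MulAut.congr e).toMonoidHom).comp (MulAut.conjNormal (H := Q))
  have hker : f.ker = Subgroup.centralizer (Q : Set X) := by
    ext x
    rw [MonoidHom.mem_ker, Subgroup.mem_centralizer_iff]
    have h1 : f x = 1 ↔ (MulAut.conjNormal x : MulAut Q) = 1 := by
      change E ((MulAut.congr e) (MulAut.conjNormal x)) = 1 ↔ _
      rw [map_eq_one_iff E E.injective, map_eq_one_iff _ (MulAut.congr e).injective]
    rw [h1]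
    constructor
    · intro h y hy
      have h2 := DFunLike.congr_fun h (⟨y, hy⟩ : Q)
      have h3 := congrArg Subtype.val h2
      rw [MulAut.conjNormal_apply, MulAut.one_apply] at h3
      calc y * x = (x * y * x⁻¹) * x := by rw [h3]
        _ = x * y := by group
    · intro h
      ext y
      rw [MulAut.conjNormal_apply, MulAut.one_apply]
      have := h y y.2
      calc x * y * x⁻¹ = (y * x) * x⁻¹ := by rw [this]
        _ = y := by group
  refine ⟨f, hker ▸ hC, ?_⟩
  rw [hker]
  -- the centralizer is {1, z}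
  set z : X := ((e.symm (a 2) : Q) : X) with hz
  have hzQ : z ∈ Q := (e.symm (a 2)).2
  have hz1 : z ≠ 1 := by
    intro h
    have h1 : e.symm (a 2) = 1 := Subtype.ext h
    have h2 : (a 2 : QuaternionGroup 2) = 1 := by
      have := congrArg e h1
      rwa [e.apply_symm_apply, map_one] at this
    revert h2
    decide
  have hmem : ∀ x : X, x ∈ Subgroup.centralizer (Q : Set X) ↔ x = 1 ∨ x = z := by
    intro x
    constructor
    · intro hx
      have hxQ := hC hx
      have h1 : ∀ v : QuaternionGroup 2, v * e ⟨x, hxQ⟩ = e ⟨x, hxQ⟩ * v := by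
        intro v
        obtain ⟨y, rfl⟩ := e.surjective v
        rw [← map_mul, ← map_mul]
        congr 1
        apply Subtype.ext
        exact Subgroup.mem_centralizer_iff.mp hx y y.2
      rcases aut_dec _ h1 with h2 | h2
      · left
        have : (⟨x, hxQ⟩ : Q) = 1 := by
          apply e.injective; rw [h2, map_one]
        exact congrArg Subtype.val this
      · right
        have : (⟨x, hxQ⟩ : Q) = e.symm (a 2) := by
          apply e.injective; rw [h2, e.apply_symm_apply]
        exact congrArg Subtype.val this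
    · rintro (rfl | rfl)
      · exact Subgroup.one_mem _
      · rw [Subgroup.mem_centralizer_iff]
        intro y hy
        have h1 := aut_dec2 (e ⟨y, hy⟩)
        have h2 : (⟨y, hy⟩ : Q) * e.symm (a 2) = e.symm (a 2) * ⟨y, hy⟩ := by
          apply e.injective
          rw [map_mul, map_mul, e.apply_symm_apply, h1]
        exact congrArg Subtype.val h2
  rw [Nat.card_eq_two_iff]
  refine ⟨⟨1, Subgroup.one_mem _⟩, ⟨z, (hmem z).mpr (Or.inr rfl)⟩, ?_, ?_⟩
  · intro h
    exact hz1 (congrArg Subtype.val h).symm
  · ext ⟨x, hx⟩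
    simp only [Set.mem_insert_iff, Set.mem_singleton_iff, Set.mem_univ, iff_true, Subtype.mk.injEq]
    exact (hmem x).mp hx

end Cfsg.Agent.Lib.Helper92.G23
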