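import Mathlib

set_option autoImplicit false

namespace Cfsg.Agent.Lib.Helper92.G23

open QuaternionGroup

variable {X : Type*} [Group X] [Finite X]

theorem card_48 (Q : Subgroup X) [Q.Normal] (e : ↥Q ≃* QuaternionGroup 2)
    (f : X →* Equiv.Perm (Fin 4)) (hk2 : Nat.card f.ker = 2)
    (hn : ¬ ∃ P : Sylow 2 X, (P : Subgroup X).Normal) :
    Nat.card X = 48 ∧ Function.Surjective f := by
  have hQ8 : Nat.card Q = 8 := by
    rw [Nat.card_congr e.toEquiv, Nat.card_eq_fintype_card, QuaternionGroup.card]
  have h1 : Nat.card X = 2 * Nat.card f.range := by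
    have h2 := f.ker.card_mul_index
    rw [Subgroup.index_ker, hk2] at h2
    exact h2.symm
  have h24 : Nat.card (Equiv.Perm (Fin 4)) = 24 := by
    rw [Nat.card_eq_fintype_card, Fintype.card_perm]; rfl
  have h3 : Nat.card f.range ∣ 24 := by
    rw [← h24]; exact Subgroup.card_subgroup_dvd_card _
  have h4 : 8 ∣ Nat.card X := by
    rw [← hQ8]; exact Subgroup.card_subgroup_dvd_card _
  have h2grp : ∀ k : ℕ, Nat.card X = 2 ^ k → False := by
    intro k hk
    apply hn
    obtain ⟨P⟩ : Nonempty (Sylow 2 X) := inferInstance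
    refine ⟨P, ?_⟩
    have hX : IsPGroup 2 X := IsPGroup.of_card hk
    have : (P : Subgroup X) = ⊤ := by
      have h1 := P.is_maximal' (Q := ⊤) (hX.of_equiv Subgroup.topEquiv.symm) le_top
      exact h1.symm
    rw [this]
    infer_instance
  have h5 : Nat.card f.range ∈ Nat.divisors 24 := Nat.mem_divisors.mpr ⟨h3, by norm_num⟩
  have h6 : Nat.divisors 24 = {1, 2, 3, 4, 6, 8, 12, 24} := by decide
  rw [h6] at h5
  simp only [Finset.mem_insert, Finset.mem_singleton] at h5
  have h7 : Nat.card f.range = 24 := by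
    rcases h5 with h | h | h | h | h | h | h | h
    · rw [h] at h1; omega
    · rw [h] at h1; omega
    · rw [h] at h1; omega
    · rw [h] at h1; exact (h2grp 3 (by rw [h1]; norm_num)).elim
    · rw [h] at h1; omega
    · rw [h] at h1; exact (h2grp 4 (by rw [h1]; norm_num)).elim
    · exfalso
      rw [h] at h1
      apply hn
      have hfac : Nat.card Q = 2 ^ (Nat.card X).factorization 2 := by
        rw [hQ8, h1]
        have h8 : (2 * 12 : ℕ).factorization 2 = 3 := by
          have : (2 * 12 : ℕ) = 2 ^ 3 * 3 := by norm_num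
          rw [this, Nat.factorization_mul (by norm_num) (by norm_num), Finsupp.add_apply,
            Nat.Prime.factorization_pow Nat.prime_two, Finsupp.single_eq_same,
            Nat.factorization_eq_zero_of_not_dvd (by norm_num)]
        rw [h8]; norm_num
      exact ⟨Sylow.ofCard Q hfac, by rw [Sylow.coe_ofCard]; infer_instance⟩
    · exact h
  refine ⟨by rw [h1, h7], ?_⟩
  rw [← MonoidHom.range_eq_top]
  exact Subgroup.eq_top_of_card_eq _ (by rw [h7, h24])

end Cfsg.Agent.Lib.Helper92.G23
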