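import Mathlib

set_option autoImplicit false

namespace Cfsg.Agent.Lib.Helper92.G23

variable {X : Type*} [Group X]

theorem cen_dec : ∀ x : Equiv.Perm (Fin 4), (∀ y, y * x = x * y) → x = 1 := by decide

theorem center_S4 (f : X →* Equiv.Perm (Fin 4)) (hf : Function.Surjective f)
    (hk2 : Nat.card f.ker = 2) :
    Subgroup.center X = f.ker ∧ Nonempty (X ⧸ Subgroup.center X ≃* Equiv.Perm (Fin 4)) := by
  have h1 : Subgroup.center X = f.ker := by
    apply le_antisymm
    · intro x hx
      rw [MonoidHom.mem_ker]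
      have h2 : f x ∈ Subgroup.center (Equiv.Perm (Fin 4)) := by
        rw [Subgroup.mem_center_iff]
        intro y
        obtain ⟨y', rfl⟩ := hf y
        rw [← map_mul, ← map_mul, Subgroup.mem_center_iff.mp hx y']
      exact cen_dec (f x) (fun y => Subgroup.mem_center_iff.mp h2 y)
    · intro x hx
      rw [Subgroup.mem_center_iff]
      intro y
      by_cases hx1 : x = 1
      · rw [hx1, mul_one, one_mul]
      have hy : y * x * y⁻¹ ∈ f.ker := (inferInstance : f.ker.Normal).conj_mem x hx y
      have hy1 : y * x * y⁻¹ ≠ 1 := by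
        intro h
        apply hx1
        have : x = y⁻¹ * (y * x * y⁻¹) * y := by group
        rw [this, h]; group
      have key : ∀ u v : f.ker, u ≠ 1 → v ≠ 1 → u = v := by
        intro u v hu hv
        obtain ⟨w, _, hw⟩ := (Nat.card_eq_two_iff' (1 : f.ker)).mp hk2
        rw [hw u hu, hw v hv]
      have := key ⟨y * x * y⁻¹, hy⟩ ⟨x, hx⟩ (by simpa [Subtype.ext_iff] using hy1)
        (by simpa [Subtype.ext_iff] using hx1)
      have h4 : y * x * y⁻¹ = x := congrArg Subtype.val this
      calc y * x = (y * x * y⁻¹) * y := by group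
        _ = x * y := by rw [h4]
  refine ⟨h1, ⟨?_⟩⟩
  exact (QuotientGroup.quotientMulEquivOfEq h1).trans
    (QuotientGroup.quotientKerEquivOfSurjective f hf)

end Cfsg.Agent.Lib.Helper92.G23
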