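import Mathlib

set_option autoImplicit false

namespace Cfsg.Agent.Lib.Helper92.G23

theorem dlift_mod {Γ : Type*} [Group Γ] (r : Γ) (hr : r ^ 3 = 1) (n : ℕ) :
    r ^ (n % 3) = r ^ n := by
  conv_rhs => rw [← Nat.mod_add_div n 3, pow_add, pow_mul, hr, one_pow, mul_one]

theorem dlift_pow {Γ : Type*} [Group Γ] (r : Γ) (hr : r ^ 3 = 1) (a b : ZMod 3) :
    r ^ (a + b).val = r ^ a.val * r ^ b.val := by
  rw [← pow_add, ZMod.val_add, dlift_mod r hr]

theorem dlift_neg {Γ : Type*} [Group Γ] (r : Γ) (hr : r ^ 3 = 1) (a : ZMod 3) :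
    r ^ (-a).val = (r ^ a.val)⁻¹ := by
  rw [eq_inv_iff_mul_eq_one, ← dlift_pow r hr, neg_add_cancel, ZMod.val_zero, pow_zero]

theorem dlift_conj {Γ : Type*} [Group Γ] (r t : Γ) (ht : t * t = 1)
    (htr : t * r * t⁻¹ = r⁻¹) (n : ℕ) : r ^ n * t = t * (r ^ n)⁻¹ := by
  have h1 : t * r ^ n * t⁻¹ = (r ^ n)⁻¹ := by
    rw [← conj_pow, htr, inv_pow]
  have h2 : t⁻¹ = t := inv_eq_of_mul_eq_one_left ht
  rw [← h1, h2]
  calc r ^ n * t = (t * t) * r ^ n * t := by rw [ht, one_mul]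
    _ = t * (t * r ^ n * t) := by group

theorem exists_dihedral_hom {Γ : Type*} [Group Γ] (r t : Γ) (hr : r ^ 3 = 1) (ht : t * t = 1)
    (htr : t * r * t⁻¹ = r⁻¹) :
    ∃ ψ : DihedralGroup 3 →* Γ, ψ (DihedralGroup.r 1) = r ∧ ψ (DihedralGroup.sr 0) = t := by
  let f : DihedralGroup 3 → Γ := fun d =>
    match d with
    | .r k => r ^ k.val
    | .sr k => t * r ^ k.val
  have hf : ∀ x y, f (x * y) = f x * f y := by
    rintro (a | a) (b | b)
    · exact dlift_pow r hr a b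
    · change t * r ^ (b - a).val = r ^ a.val * (t * r ^ b.val)
      rw [← mul_assoc, dlift_conj r t ht htr, sub_eq_add_neg, add_comm, dlift_pow r hr,
        dlift_neg r hr, mul_assoc]
    · change t * r ^ (a + b).val = t * r ^ a.val * r ^ b.val
      rw [dlift_pow r hr, mul_assoc]
    · change r ^ (b - a).val = t * r ^ a.val * (t * r ^ b.val)
      rw [mul_assoc, ← mul_assoc (r ^ a.val), dlift_conj r t ht htr, sub_eq_add_neg, add_comm,
        dlift_pow r hr, dlift_neg r hr, mul_assoc, ← mul_assoc t t, ht, one_mul]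
  refine ⟨MonoidHom.mk' f hf, ?_, ?_⟩
  · change r ^ (1 : ZMod 3).val = r
    have : (1 : ZMod 3).val = 1 := rfl
    rw [this, pow_one]
  · change t * r ^ (0 : ZMod 3).val = t
    rw [ZMod.val_zero, pow_zero, mul_one]

end Cfsg.Agent.Lib.Helper92.G23
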