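import Mathlib

/-! Definitions for the ladder G23 (recognition of `GL(2,3)` as `Q₈ ⋊ S₃`). -/

set_option autoImplicit false

namespace Cfsg.Agent.Lib.Helper92.G23

open QuaternionGroup DihedralGroup

/-- the relations satisfied by `i, j` (quaternion group), `r` (order 3), `t` (involution). -/
structure Rel {Γ : Type*} [Group Γ] (i j r t : Γ) : Prop where
  hi : orderOf i = 4
  hj : j * j = i ^ 2
  hji : j * i * j⁻¹ = i⁻¹
  hr : r ^ 3 = 1
  hri : r * i * r⁻¹ = j
  hrj : r * j * r⁻¹ = i * j
  ht : t * t = 1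
  htr : t * r * t⁻¹ = r⁻¹
  hti : t * i * t⁻¹ = j⁻¹

/-- `i ↦ j ↦ ij ↦ i` with `i = a 1`, `j = xa 0`. -/
def sigF : QuaternionGroup 2 → QuaternionGroup 2
  | .a k => if k = 0 then a 0 else if k = 1 then xa 0 else if k = 2 then a 2 else xa 2
  | .xa k => if k = 0 then xa 3 else if k = 1 then a 3 else if k = 2 then xa 1 else a 1

/-- `i ↦ j⁻¹`, `j ↦ i⁻¹`. -/
def tauF : QuaternionGroup 2 → QuaternionGroup 2
  | .a k => if k = 0 then a 0 else if k = 1 then xa 2 else if k = 2 then a 2 else xa 0
  | .xa k => if k = 0 then a 3 else if k = 1 then xa 3 else if k = 2 then a 1 else xa 1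

/-- the action of `S₃ = DihedralGroup 3` on `Q₈`: `r 1 ↦ sigF`, `sr 0 ↦ tauF`. -/
def phiF : DihedralGroup 3 → QuaternionGroup 2 → QuaternionGroup 2
  | .r k, u => if k = 0 then u else if k = 1 then sigF u else sigF (sigF u)
  | .sr k, u => tauF (if k = 0 then u else if k = 1 then sigF u else sigF (sigF u))

theorem phiF_mul : ∀ (d : DihedralGroup 3) (u v : QuaternionGroup 2),
    phiF d (u * v) = phiF d u * phiF d v := by decide

theorem phiF_comp : ∀ (d d' : DihedralGroup 3) (u : QuaternionGroup 2),
    phiF (d * d') u = phiF d (phiF d' u) := by decide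

theorem phiF_one : ∀ u : QuaternionGroup 2, phiF 1 u = u := by decide

/-- the action as a homomorphism. -/
def phi : DihedralGroup 3 →* MulAut (QuaternionGroup 2) where
  toFun d :=
    { toFun := phiF d
      invFun := phiF d⁻¹
      left_inv := fun u => by rw [← phiF_comp, inv_mul_cancel, phiF_one]
      right_inv := fun u => by rw [← phiF_comp, mul_inv_cancel, phiF_one]
      map_mul' := phiF_mul d }
  map_one' := by
    ext u
    exact phiF_one u
  map_mul' d d' := by
    ext u
    exact phiF_comp d d' u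

theorem phi_apply (d : DihedralGroup 3) (u : QuaternionGroup 2) : phi d u = phiF d u := rfl

/-- the model `Q₈ ⋊ S₃` of order 48. -/
abbrev Mdl : Type := QuaternionGroup 2 ⋊[phi] DihedralGroup 3

end Cfsg.Agent.Lib.Helper92.G23
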