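import Mathlib
import Cfsg.Agent.Lib.Helper59.QuatHom
import Cfsg.Agent.Lib.Helper92.G23.Defs
import Cfsg.Agent.Lib.Helper92.G23.DLIFT

set_option autoImplicit false

namespace Cfsg.Agent.Lib.Helper92.G23

open QuaternionGroup DihedralGroup

theorem cover_closure : Subgroup.closure ({a 1, xa 0} : Set (QuaternionGroup 2)) = ⊤ := by
  have h : ∀ u : QuaternionGroup 2, ∃ m n : Fin 4, u = (xa 0) ^ (m : ℕ) * (a 1) ^ (n : ℕ) := by
    decide
  rw [eq_top_iff]
  intro u _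
  obtain ⟨m, n, rfl⟩ := h u
  exact Subgroup.mul_mem _ (Subgroup.pow_mem _ (Subgroup.subset_closure (by simp)) _)
    (Subgroup.pow_mem _ (Subgroup.subset_closure (by simp)) _)

theorem cover_gen : ∀ d : DihedralGroup 3, ∃ (m : Fin 2) (n : Fin 3),
    d = (sr 0) ^ (m : ℕ) * (r 1) ^ (n : ℕ) := by decide

theorem cover {Γ : Type*} [Group Γ] (i j r t : Γ) (h : Rel i j r t) :
    ∃ (F : QuaternionGroup 2 →* Γ) (ψ : DihedralGroup 3 →* Γ) (Θ : Mdl →* Γ),
      Function.Injective F ∧ (∀ x : Mdl, Θ x = F x.left * ψ x.right) ∧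
      (∀ d u, F (phi d u) = ψ d * F u * (ψ d)⁻¹) := by
  have hjn : j ∉ Subgroup.zpowers i := by
    intro hj
    obtain ⟨k, rfl⟩ := hj
    have h1 := h.hji
    have h2 : i ^ k * i * (i ^ k)⁻¹ = i := by group
    rw [h2] at h1
    have h3 : i ^ 2 = 1 := by
      rw [pow_two]
      nth_rewrite 1 [h1]
      exact inv_mul_cancel i
    have h4 := orderOf_dvd_of_pow_eq_one h3
    rw [h.hi] at h4
    omega
  obtain ⟨F, hF, hFa, hFx⟩ := Cfsg.Agent.Lib.Helper59.exists_quaternion_hom 2 i j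
    (by rw [h.hi]) h.hj h.hji hjn
  obtain ⟨ψ, hψr, hψt⟩ := exists_dihedral_hom r t h.hr h.ht h.htr
  have hF1 : F (a 1) = i := by
    have := hFa 1
    simpa using this
  have hF0 : F (xa 0) = j := by
    have := hFx 0
    simpa using this
  have htj : t * j * t⁻¹ = i⁻¹ := by
    have h1 : t * i * t⁻¹ = j⁻¹ := h.hti
    have h2 : t⁻¹ = t := inv_eq_of_mul_eq_one_left h.ht
    have h3 : j = t * i⁻¹ * t⁻¹ := by
      have : (t * i * t⁻¹)⁻¹ = j := by rw [h1, inv_inv]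
      rw [← this]; group
    rw [h3, h2]
    calc t * (t * i⁻¹ * t) * t = (t * t) * i⁻¹ * (t * t) := by group
      _ = i⁻¹ := by rw [h.ht, one_mul, mul_one]
  have step : ∀ d : DihedralGroup 3, (F (phi d (a 1)) = ψ d * F (a 1) * (ψ d)⁻¹) →
      (F (phi d (xa 0)) = ψ d * F (xa 0) * (ψ d)⁻¹) →
      ∀ u, F (phi d u) = ψ d * F u * (ψ d)⁻¹ := by
    intro d h1 h2
    have heq : F.comp (phi d).toMonoidHom = (MulAut.conj (ψ d)).toMonoidHom.comp F := by
      apply MonoidHom.eq_of_eqOn_dense cover_closure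
      intro u hu
      rcases hu with rfl | rfl
      · exact h1
      · exact h2
    intro u
    exact DFunLike.congr_fun heq u
  have hr1 : ∀ u, F (phi (DihedralGroup.r 1) u) =
      ψ (DihedralGroup.r 1) * F u * (ψ (DihedralGroup.r 1))⁻¹ := by
    apply step
    · rw [hψr, hF1, h.hri, ← hF0]; rfl
    · rw [hψr, hF0, h.hrj, ← hF0, ← hF1, ← map_mul]; rfl
  have ht1 : ∀ u, F (phi (DihedralGroup.sr 0) u) =
      ψ (DihedralGroup.sr 0) * F u * (ψ (DihedralGroup.sr 0))⁻¹ := by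
    apply step
    · rw [hψt, hF1, h.hti, ← hF0, ← map_inv]; rfl
    · rw [hψt, hF0, htj, ← hF1, ← map_inv]; rfl
  have hmul : ∀ d d' : DihedralGroup 3, (∀ u, F (phi d u) = ψ d * F u * (ψ d)⁻¹) →
      (∀ u, F (phi d' u) = ψ d' * F u * (ψ d')⁻¹) →
      ∀ u, F (phi (d * d') u) = ψ (d * d') * F u * (ψ (d * d'))⁻¹ := by
    intro d d' h1 h2 u
    rw [map_mul, MulAut.mul_apply, h1, h2, map_mul]
    group
  have hone : ∀ u, F (phi 1 u) = ψ 1 * F u * (ψ 1)⁻¹ := by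
    intro u
    simp
  have hpow : ∀ (d : DihedralGroup 3), (∀ u, F (phi d u) = ψ d * F u * (ψ d)⁻¹) → ∀ n : ℕ,
      ∀ u, F (phi (d ^ n) u) = ψ (d ^ n) * F u * (ψ (d ^ n))⁻¹ := by
    intro d hd n
    induction n with
    | zero => rw [pow_zero]; exact hone
    | succ n ih => rw [pow_succ]; exact hmul _ _ ih hd
  have hall : ∀ d u, F (phi d u) = ψ d * F u * (ψ d)⁻¹ := by
    intro d
    obtain ⟨m, n, rfl⟩ := cover_gen d
    exact hmul _ _ (hpow _ ht1 _) (hpow _ hr1 _)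
  refine ⟨F, ψ, SemidirectProduct.lift F ψ ?_, hF, ?_, hall⟩
  · intro d
    ext u
    simp only [MonoidHom.comp_apply, MulEquiv.coe_toMonoidHom, MulAut.conj_apply]
    exact hall d u
  · intro x
    rfl

end Cfsg.Agent.Lib.Helper92.G23
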