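import Mathlib

set_option autoImplicit false

namespace Cfsg.Agent.Lib.Helper92.G23

variable {X : Type*} [Group X]

theorem comm_of_odd (x c : X) (k : ℕ) (hx : Odd (orderOf x)) (hc : orderOf c = 2 ^ k)
    (h : x * c * x⁻¹ ∈ Subgroup.zpowers c) : x * c * x⁻¹ = c := by
  have hcfin : IsOfFinOrder c := by
    rw [← orderOf_pos_iff, hc]; positivity
  obtain ⟨m, hm⟩ : ∃ m : ℕ, c ^ m = x * c * x⁻¹ := by
    have h' := (hcfin.mem_powers_iff_mem_zpowers).mpr h
    exact h'
  have hpow : ∀ n : ℕ, x ^ n * c * (x ^ n)⁻¹ = c ^ (m ^ n) := by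
    intro n
    induction n with
    | zero => simp
    | succ n ih =>
      have : x ^ (n + 1) * c * (x ^ (n + 1))⁻¹ = x * (x ^ n * c * (x ^ n)⁻¹) * x⁻¹ := by
        rw [pow_succ']; group
      rw [this, ih, ← conj_pow, ← hm, ← pow_mul, pow_succ']
  have h1 := hpow (orderOf x)
  rw [pow_orderOf_eq_one, one_mul, inv_one, mul_one] at h1
  -- c = c ^ (m ^ N)
  have h2 : m ^ orderOf x ≡ 1 [MOD 2 ^ k] := by
    rw [← hc]
    apply (pow_eq_pow_iff_modEq).mp
    rw [pow_one]; exact h1.symm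
  have h3 : m ≡ 1 [MOD 2 ^ k] := by
    rcases Nat.eq_zero_or_pos k with rfl | hk
    · simp [Nat.modEq_one]
    have hcop : Nat.Coprime m (2 ^ k) := by
      have h4 : Nat.Coprime (m ^ orderOf x) (2 ^ k) := by
        have := h2.gcd_eq
        rw [Nat.Coprime, this]; simp
      exact Nat.Coprime.coprime_dvd_left (dvd_pow_self m hx.pos.ne') h4
    let u : (ZMod (2 ^ k))ˣ := ZMod.unitOfCoprime m hcop
    have hu1 : u ^ orderOf x = 1 := by
      apply Units.ext
      rw [Units.val_pow_eq_pow_val, ZMod.coe_unitOfCoprime, Units.val_one, ← Nat.cast_pow]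
      have := (ZMod.natCast_eq_natCast_iff _ _ _).mpr h2
      rw [this, Nat.cast_one]
    have hu2 : u ^ (2 ^ (k - 1)) = 1 := by
      have : NeZero (2 ^ k) := ⟨by positivity⟩
      have h5 : Fintype.card (ZMod (2 ^ k))ˣ = 2 ^ (k - 1) := by
        rw [ZMod.card_units_eq_totient, Nat.totient_prime_pow Nat.prime_two hk]; simp
      rw [← h5]; exact pow_card_eq_one
    have hu : u = 1 := by
      have h6 : Nat.Coprime (orderOf x) (2 ^ (k - 1)) :=
        Nat.Coprime.pow_right _ (Nat.coprime_two_right.mpr hx)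
      have h7 := orderOf_dvd_of_pow_eq_one hu1
      have h8 := orderOf_dvd_of_pow_eq_one hu2
      have h9 : orderOf u ∣ 1 := by
        rw [← h6]; exact Nat.dvd_gcd h7 h8
      exact orderOf_eq_one_iff.mp (Nat.dvd_one.mp h9)
    have h10 : ((m : ℕ) : ZMod (2 ^ k)) = ((1 : ℕ) : ZMod (2 ^ k)) := by
      have := congrArg Units.val hu
      rw [ZMod.coe_unitOfCoprime, Units.val_one] at this
      rw [this, Nat.cast_one]
    exact (ZMod.natCast_eq_natCast_iff _ _ _).mp h10
  rw [← hm]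
  have : c ^ m = c ^ 1 := by
    apply (pow_eq_pow_iff_modEq).mpr
    rw [hc]; exact h3
  rw [this, pow_one]

end Cfsg.Agent.Lib.Helper92.G23
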