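import Mathlib
import Cfsg.Agent.Lib.Helper92.G23.ODDCYC

set_option autoImplicit false

namespace Cfsg.Agent.Lib.Helper92.G23

variable {X : Type*} [Group X] [Finite X]

/-- if every element of odd order is trivial then `X` is a 2-group -/
theorem cyc_isPGroup_of_odd (h : ∀ x : X, Odd (orderOf x) → x = 1) : IsPGroup 2 X := by
  intro x
  obtain ⟨k, m, hm, hkm⟩ := Nat.exists_eq_pow_mul_and_not_dvd (orderOf_pos x).ne' 2 (by norm_num)
  refine ⟨k, ?_⟩
  apply h
  have h1 : orderOf (x ^ 2 ^ k) = m := by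
    rw [orderOf_pow' x (by positivity), hkm, Nat.gcd_eq_right (Dvd.intro _ rfl)]
    exact Nat.mul_div_cancel_left m (by positivity)
  rw [h1]
  exact Nat.odd_iff.mpr (Nat.two_dvd_ne_zero.mp hm)

/-- an element of odd order of a 2-subgroup is trivial -/
theorem cyc_eq_one_of_mem {Q : Subgroup X} (hQ : IsPGroup 2 Q) {x : X} (hx : x ∈ Q)
    (ho : Odd (orderOf x)) : x = 1 := by
  obtain ⟨k, hk⟩ := hQ ⟨x, hx⟩
  have h1 : x ^ 2 ^ k = 1 := by
    have := congrArg Subtype.val hk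
    simpa using this
  have h2 := orderOf_dvd_of_pow_eq_one h1
  have h3 : Nat.Coprime (orderOf x) (2 ^ k) := Nat.Coprime.pow_right _ (Nat.coprime_two_right.mpr ho)
  exact orderOf_eq_one_iff.mp (Nat.Coprime.eq_one_of_dvd h3 h2)

theorem isPGroup_of_cyclic (Q : Subgroup X) [Q.Normal] (hQ : IsPGroup 2 Q) (hcyc : IsCyclic Q)
    (hC : Subgroup.centralizer (Q : Set X) ≤ Q) : IsPGroup 2 X := by
  apply cyc_isPGroup_of_odd
  intro x hx
  obtain ⟨⟨c, hcQ⟩, hc⟩ := hcyc.exists_generator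
  have hQc : ∀ y ∈ Q, y ∈ Subgroup.zpowers c := by
    intro y hy
    obtain ⟨n, hn⟩ := hc ⟨y, hy⟩
    refine ⟨n, ?_⟩
    have := congrArg Subtype.val hn
    simpa using this
  obtain ⟨k, hk⟩ : ∃ k, orderOf c = 2 ^ k := by
    obtain ⟨k, hk⟩ := hQ ⟨c, hcQ⟩
    have h1 : c ^ 2 ^ k = 1 := by
      have := congrArg Subtype.val hk
      simpa using this
    obtain ⟨j, _, hj⟩ := (Nat.dvd_prime_pow Nat.prime_two).mp (orderOf_dvd_of_pow_eq_one h1)
    exact ⟨j, hj⟩
  have h1 : x * c * x⁻¹ = c :=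
    comm_of_odd x c k hx hk (hQc _ ((inferInstance : Q.Normal).conj_mem c hcQ x))
  have h2 : x ∈ Subgroup.centralizer (Q : Set X) := by
    rw [Subgroup.mem_centralizer_iff]
    intro y hy
    obtain ⟨n, rfl⟩ := hQc y hy
    have h3 : Commute x c := by
      have : x * c = c * x := by
        calc x * c = (x * c * x⁻¹) * x := by group
          _ = c * x := by rw [h1]
      exact this
    exact ((h3.zpow_right n).eq).symm
  exact cyc_eq_one_of_mem hQ (hC h2) hx

end Cfsg.Agent.Lib.Helper92.G23
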