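import Mathlib
import Cfsg.Agent.Lib.Helper92.G23.CEN

set_option autoImplicit false

namespace Cfsg.Agent.Lib.Helper92.G23

open QuaternionGroup

variable {X : Type*} [Group X] [Finite X]

/-- membership in the Klein four-subgroup of `S₄` -/
def eltV (σ : Equiv.Perm (Fin 4)) : Prop := σ * σ = 1 ∧ Equiv.Perm.sign σ = 1

instance : DecidablePred eltV := fun σ => by unfold eltV; infer_instance

theorem elt_dec1 : ∀ σ : Equiv.Perm (Fin 4), ¬ eltV σ →
    6 ≤ (Finset.univ.image (fun g : Equiv.Perm (Fin 4) => g * σ * g⁻¹)).card := by decide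

theorem elt_dec2 : (Finset.univ.filter eltV).card = 4 := by decide

theorem elt_dec3 : ∀ τ : Equiv.Perm (Fin 4), τ * τ = 1 → ¬ eltV τ →
    ∃ ρ : Equiv.Perm (Fin 4), ρ ^ 3 = 1 ∧ ρ ≠ 1 ∧ τ * ρ * τ⁻¹ = ρ⁻¹ := by decide

theorem exists_inverted (Q : Subgroup X) [hQn : Q.Normal] (e : ↥Q ≃* QuaternionGroup 2)
    (f : X →* Equiv.Perm (Fin 4)) (hf : Function.Surjective f) (hker : f.ker ≤ Q)
    (hk2 : Nat.card f.ker = 2) (t : X) (ht : t * t = 1) (htQ : t ∉ Q) :
    ∃ r : X, r ^ 3 = 1 ∧ r ≠ 1 ∧ t * r * t⁻¹ = r⁻¹ := by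
  classical
  have hQ8 : Nat.card Q = 8 := by
    rw [Nat.card_congr e.toEquiv, Nat.card_eq_fintype_card, QuaternionGroup.card]
  set N : Subgroup (Equiv.Perm (Fin 4)) := Q.map f with hN
  have hN4 : Nat.card N = 4 := by
    have h1 := (f.comp Q.subtype).ker.card_mul_index
    rw [Subgroup.index_ker, hQ8] at h1
    have h2 : (f.comp Q.subtype).ker = f.ker.subgroupOf Q := rfl
    have h3 : Nat.card (f.ker.subgroupOf Q) = 2 := by
      rw [← hk2]
      exact Nat.card_congr (Subgroup.subgroupOfEquivOfLe hker).toEquiv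
    have h4 : (f.comp Q.subtype).range = N := by
      rw [MonoidHom.range_comp, Subgroup.range_subtype]
    rw [h2, h3, h4] at h1
    omega
  have hNn : ∀ σ ∈ N, ∀ g, g * σ * g⁻¹ ∈ N := by
    rintro _ ⟨q, hq, rfl⟩ g
    obtain ⟨g', rfl⟩ := hf g
    exact ⟨g' * q * g'⁻¹, hQn.conj_mem q hq g', by simp⟩
  set NF : Finset (Equiv.Perm (Fin 4)) := Finset.univ.filter (· ∈ N) with hNF
  have hNFc : NF.card = 4 := by
    have h1 : Nat.card N = NF.card := by
      rw [Nat.card_eq_fintype_card, Fintype.card_subtype]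
    rw [← h1, hN4]
  have hsub : NF ⊆ Finset.univ.filter eltV := by
    intro σ hσ
    rw [Finset.mem_filter] at hσ ⊢
    refine ⟨Finset.mem_univ _, ?_⟩
    by_contra hV
    have h1 := elt_dec1 σ hV
    have h2 : (Finset.univ.image (fun g : Equiv.Perm (Fin 4) => g * σ * g⁻¹)) ⊆ NF := by
      intro y hy
      rw [Finset.mem_image] at hy
      obtain ⟨g, _, rfl⟩ := hy
      rw [Finset.mem_filter]
      exact ⟨Finset.mem_univ _, hNn σ hσ.2 g⟩
    have h3 := Finset.card_le_card h2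
    omega
  have heq : NF = Finset.univ.filter eltV :=
    Finset.eq_of_subset_of_card_le hsub (by rw [elt_dec2, hNFc])
  have htV : ¬ eltV (f t) := by
    intro hV
    have h1 : f t ∈ NF := by
      rw [heq, Finset.mem_filter]; exact ⟨Finset.mem_univ _, hV⟩
    rw [Finset.mem_filter] at h1
    obtain ⟨q, hq, hqt⟩ := h1.2
    apply htQ
    have h2 : q⁻¹ * t ∈ f.ker := by
      rw [MonoidHom.mem_ker, map_mul, map_inv, hqt, inv_mul_cancel]
    have h3 := Q.mul_mem hq (hker h2)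
    rwa [mul_inv_cancel_left] at h3
  obtain ⟨ρ, hρ3, hρ1, hρt⟩ := elt_dec3 (f t) (by rw [← map_mul, ht, map_one]) htV
  obtain ⟨s, rfl⟩ := hf ρ
  have hcen : Subgroup.center X = f.ker := (center_S4 f hf hk2).1
  have hsq : ∀ w ∈ f.ker, w * w = 1 := by
    intro w hw
    have hfin : Finite f.ker := inferInstance
    have h1 : (⟨w, hw⟩ : f.ker) ^ Nat.card f.ker = 1 := pow_card_eq_one'
    rw [hk2] at h1
    have := congrArg Subtype.val h1
    simpa [pow_two] using this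
  have hs3 : s ^ 3 ∈ f.ker := by rw [MonoidHom.mem_ker, map_pow, hρ3]
  have hs6 : s ^ 6 = 1 := by
    have := hsq _ hs3
    rw [← pow_add] at this
    exact this
  refine ⟨s ^ 4, ?_, ?_, ?_⟩
  · rw [← pow_mul]
    calc s ^ (4 * 3) = (s ^ 6) ^ 2 := by rw [← pow_mul]
      _ = 1 := by rw [hs6, one_pow]
  · intro h
    apply hρ1
    have h1 : f (s ^ 4) = f s := by
      rw [map_pow]
      calc f s ^ 4 = f s ^ 3 * f s := pow_succ _ 3
        _ = f s := by rw [hρ3, one_mul]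
    rw [← h1, h, map_one]
  · set r := s ^ 4 with hr
    have hfr : f r = f s := by
      rw [hr, map_pow]
      calc f s ^ 4 = f s ^ 3 * f s := pow_succ _ 3
        _ = f s := by rw [hρ3, one_mul]
    have hr3 : r ^ 3 = 1 := by
      rw [hr, ← pow_mul]
      calc s ^ (4 * 3) = (s ^ 6) ^ 2 := by rw [← pow_mul]
        _ = 1 := by rw [hs6, one_pow]
    obtain ⟨ζ, hζ⟩ : ∃ ζ, ζ = t * r * t⁻¹ * r := ⟨_, rfl⟩
    have hζk : ζ ∈ f.ker := by
      rw [MonoidHom.mem_ker, hζ, map_mul, map_mul, map_mul, map_inv, hfr, hρt, inv_mul_cancel]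
    have hζc : ∀ y, y * ζ = ζ * y := by
      have : ζ ∈ Subgroup.center X := hcen ▸ hζk
      exact fun y => Subgroup.mem_center_iff.mp this y
    have hζ2 : ζ * ζ = 1 := hsq ζ hζk
    have h1 : t * r * t⁻¹ = ζ * r⁻¹ := by rw [hζ]; simp only [mul_assoc, mul_inv_cancel, mul_one]
    have h2 : (t * r * t⁻¹) ^ 3 = 1 := by rw [conj_pow, hr3]; simp
    have h3 : (ζ * r⁻¹) ^ 3 = ζ := by
      have hc : Commute ζ r⁻¹ := (hζc r⁻¹).symm
      rw [hc.mul_pow, inv_pow, hr3, inv_one, mul_one, pow_succ, pow_two, hζ2, one_mul]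
    rw [h1, h3] at h2
    rw [h1, h2, one_mul]

end Cfsg.Agent.Lib.Helper92.G23
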