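import Mathlib
import Cfsg.Agent.Lib.Helper92.G23.Defs

set_option autoImplicit false

namespace Cfsg.Agent.Lib.Helper92.G23

open Matrix

def gliI : GL (Fin 2) (ZMod 3) := ⟨!![0, -1; 1, 0], !![0, 1; -1, 0], by decide, by decide⟩
def gliJ : GL (Fin 2) (ZMod 3) := ⟨!![1, 1; 1, -1], !![-1, -1; -1, 1], by decide, by decide⟩
def gliR : GL (Fin 2) (ZMod 3) := ⟨!![1, 1; 0, 1], !![1, -1; 0, 1], by decide, by decide⟩
def gliT : GL (Fin 2) (ZMod 3) := ⟨!![1, -1; 0, -1], !![1, -1; 0, -1], by decide, by decide⟩

theorem gli_card : Nat.card (GL (Fin 2) (ZMod 3)) = 48 := by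
  rw [Matrix.card_GL_field]
  simp [Fin.prod_univ_two]

theorem gli_rel : Rel gliI gliJ gliR gliT where
  hi := by
    have h1 : gliI ^ 2 ^ 2 = 1 := by
      apply Units.ext
      simp only [Units.val_pow_eq_pow_val, Units.val_one]
      decide
    have h2 : ¬ gliI ^ 2 ^ 1 = 1 := by
      intro h
      have := congrArg Units.val h
      simp only [Units.val_pow_eq_pow_val, Units.val_one] at this
      revert this
      decide
    have := orderOf_eq_prime_pow (p := 2) (n := 1) h2 h1
    simpa using this
  hj := by
    apply Units.ext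
    simp only [Units.val_pow_eq_pow_val, Units.val_mul]
    decide
  hji := by
    apply Units.ext
    decide
  hr := by
    apply Units.ext
    simp only [Units.val_pow_eq_pow_val, Units.val_one]
    decide
  hri := by
    apply Units.ext
    decide
  hrj := by
    apply Units.ext
    decide
  ht := by
    apply Units.ext
    decide
  htr := by
    apply Units.ext
    decide
  hti := by
    apply Units.ext
    decide

theorem gl_inst : Nat.card (GL (Fin 2) (ZMod 3)) = 48 ∧
    ∃ i j r t : GL (Fin 2) (ZMod 3), Rel i j r t :=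
  ⟨gli_card, gliI, gliJ, gliR, gliT, gli_rel⟩

end Cfsg.Agent.Lib.Helper92.G23
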