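import Mathlib
import Cfsg.Agent.Lib.Helper92.G23.Defs

set_option autoImplicit false

namespace Cfsg.Agent.Lib.Helper92.G23

open QuaternionGroup DihedralGroup

theorem inj_dec : ∀ (d : DihedralGroup 3) (q : QuaternionGroup 2),
    (∀ u, phiF d u = q⁻¹ * u * q) → d = 1 := by decide

theorem theta_injective {Γ : Type*} [Group Γ] (F : QuaternionGroup 2 →* Γ)
    (ψ : DihedralGroup 3 →* Γ) (Θ : Mdl →* Γ) (hF : Function.Injective F)
    (hΘ : ∀ x : Mdl, Θ x = F x.left * ψ x.right)
    (hc : ∀ d u, F (phi d u) = ψ d * F u * (ψ d)⁻¹) : Function.Injective Θ := by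
  rw [injective_iff_map_eq_one]
  intro x hx
  rw [hΘ] at hx
  have h1 : ψ x.right = (F x.left)⁻¹ := (eq_inv_of_mul_eq_one_right hx)
  have h2 : x.right = 1 := by
    apply inj_dec x.right x.left
    intro u
    apply hF
    rw [← phi_apply, hc, h1, map_mul, map_mul, map_inv, inv_inv]
  have h3 : x.left = 1 := by
    apply hF
    rw [h2, map_one, mul_one] at hx
    rw [hx, map_one]
  exact SemidirectProduct.ext h3 h2

end Cfsg.Agent.Lib.Helper92.G23
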