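import Mathlib
import Cfsg.Prelude.Def_CaseTheorems
import Cfsg.Agent.Lib.Helper40.Cores

set_option autoImplicit false

namespace Cfsg.Agent.Lib.Helper92.G23

/-- [LIFT] the Sylow intersection condition passes to `G / O(G)`. -/
theorem lift_rank {G : Type*} [Group G] [Finite G]
    (hI : ∀ S T : Sylow 2 G, S ≠ T → Cfsg.PRankLE 2 1 ↥((S : Subgroup G) ⊓ (T : Subgroup G)))
    (P₁ P₂ : Sylow 2 (G ⧸ Cfsg.oddCore G)) (hne : P₁ ≠ P₂) (A : Subgroup (G ⧸ Cfsg.oddCore G))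
    (hA1 : A ≤ P₁) (hA2 : A ≤ P₂) (hcomm : ∀ a ∈ A, ∀ b ∈ A, a * b = b * a)
    (hexp : ∀ a ∈ A, a ^ 2 = 1) : Nat.card A ≤ 2 := by
  have hfact : Fact (Nat.Prime 2) := ⟨Nat.prime_two⟩
  obtain ⟨f, hf⟩ : ∃ f : G →* G ⧸ Cfsg.oddCore G, f = QuotientGroup.mk' (Cfsg.oddCore G) :=
    ⟨_, rfl⟩
  have hsurj : Function.Surjective f := hf ▸ QuotientGroup.mk'_surjective _
  have hinj : ∀ S : Sylow 2 G, ∀ x ∈ (S : Subgroup G), f x = 1 → x = 1 := by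
    intro S x hx h1
    have h2 : x ∈ Cfsg.pPrimeCore 2 G := by
      rw [hf] at h1
      exact (QuotientGroup.eq_one_iff x).1 h1
    obtain ⟨k, hk⟩ := (IsPGroup.iff_orderOf.1 S.2) ⟨x, hx⟩
    have h3 : x ^ 2 ^ k = 1 := by
      rw [← hk, Subgroup.orderOf_mk]
      exact pow_orderOf_eq_one x
    exact Cfsg.Agent.Lib.Helper40.eq_one_of_pow_eq_one_of_coprime h3
      (Cfsg.Agent.Lib.Helper40.orderOf_coprime_of_mem_pPrimeCore h2)
  obtain ⟨S₁, hS₁⟩ := Sylow.mapSurjective_surjective hsurj 2 P₁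
  obtain ⟨S₂', hS₂'⟩ := Sylow.mapSurjective_surjective hsurj 2 P₂
  have hS₁m : (S₁ : Subgroup G).map f = P₁ := by rw [← hS₁]; rfl
  have hS₂m : (S₂' : Subgroup G).map f = P₂ := by rw [← hS₂']; rfl
  obtain ⟨T, hT⟩ : ∃ T : Subgroup G, T = A.comap f ⊓ S₁ := ⟨_, rfl⟩
  have hTS₁ : T ≤ S₁ := hT ▸ inf_le_right
  have hTf : ∀ t ∈ T, f t ∈ A := by
    intro t ht
    rw [hT] at ht
    exact ht.1
  have hTA : ∀ a ∈ A, ∃ t ∈ T, f t = a := by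
    intro a ha
    have : a ∈ (S₁ : Subgroup G).map f := by rw [hS₁m]; exact hA1 ha
    obtain ⟨s, hs, rfl⟩ := this
    exact ⟨s, hT ▸ ⟨ha, hs⟩, rfl⟩
  obtain ⟨Y, hY⟩ : ∃ Y : Subgroup G, Y = (P₂ : Subgroup (G ⧸ Cfsg.oddCore G)).comap f := ⟨_, rfl⟩
  have hTY : T ≤ Y := fun t ht => hY ▸ hA2 (hTf t ht)
  have hS₂Y : (S₂' : Subgroup G) ≤ Y := by
    rw [hY, ← hS₂m]
    exact Subgroup.le_comap_map _ _
  have hTp : IsPGroup 2 T := S₁.2.to_le hTS₁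
  obtain ⟨Q, hQ⟩ := (hTp.comap_subtype (K := Y)).exists_le_sylow
  obtain ⟨y, hy⟩ := MulAction.exists_smul_eq Y (S₂'.subtype hS₂Y) Q
  rw [Sylow.smul_subtype] at hy
  obtain ⟨S₂, hS₂⟩ : ∃ S₂ : Sylow 2 G, S₂ = y • S₂' := ⟨_, rfl⟩
  have hS₂Y' : (S₂ : Subgroup G) ≤ Y := hS₂ ▸ Sylow.smul_le hS₂Y y
  have hTS₂ : T ≤ S₂ := by
    intro t ht
    have h1 : (⟨t, hTY ht⟩ : Y) ∈ (Q : Subgroup Y) := hQ (by
      change (⟨t, hTY ht⟩ : Y) ∈ T.comap Y.subtype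
      exact ht)
    rw [← hy] at h1
    rw [hS₂]
    exact h1
  have hS₂m' : (P₂ : Subgroup (G ⧸ Cfsg.oddCore G)) = (S₂ : Subgroup G).map f := by
    apply (S₂.mapSurjective hsurj).3 P₂.2
    rw [Sylow.coe_mapSurjective]
    intro z hz
    obtain ⟨s, hs, rfl⟩ := hz
    have := hS₂Y' hs
    rw [hY] at this
    exact this
  have hne' : S₁ ≠ S₂ := by
    intro h
    apply hne
    apply Sylow.ext
    rw [← hS₁m, hS₂m', h]
  have hle : T ≤ (S₁ : Subgroup G) ⊓ (S₂ : Subgroup G) := le_inf hTS₁ hTS₂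
  have hTcomm : ∀ s ∈ T, ∀ t ∈ T, s * t = t * s := by
    intro s hs t ht
    have h1 : f ((s * t) * (t * s)⁻¹) = 1 := by
      rw [map_mul, map_inv, map_mul, map_mul, hcomm _ (hTf s hs) _ (hTf t ht), mul_inv_cancel]
    have h2 := hinj S₁ _ (hTS₁ (mul_mem (mul_mem hs ht) (inv_mem (mul_mem ht hs)))) h1
    exact mul_inv_eq_one.1 h2
  have hTexp : ∀ t ∈ T, t ^ 2 = 1 := by
    intro t ht
    apply hinj S₁ _ (hTS₁ (pow_mem ht 2))
    rw [map_pow]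
    exact hexp _ (hTf t ht)
  have h1 := hI S₁ S₂ hne' (T.subgroupOf ((S₁ : Subgroup G) ⊓ (S₂ : Subgroup G)))
    ⟨⟨fun a b => by
      apply Subtype.ext
      apply Subtype.ext
      exact hTcomm _ a.2 _ b.2⟩⟩
    (fun a ha => by
      apply Subtype.ext
      exact hTexp _ ha)
  rw [Nat.card_congr (Subgroup.subgroupOfEquivOfLe hle).toEquiv, pow_one] at h1
  refine le_trans ?_ h1
  apply Nat.card_le_card_of_surjective (fun t : T => (⟨f t, hTf t t.2⟩ : A))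
  intro a
  obtain ⟨t, ht, hta⟩ := hTA a a.2
  exact ⟨⟨t, ht⟩, Subtype.ext hta⟩

end Cfsg.Agent.Lib.Helper92.G23
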