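import Mathlib
import Cfsg.Agent.Lib.Helper92.G23.Defs

set_option autoImplicit false

namespace Cfsg.Agent.Lib.Helper92.G23

open QuaternionGroup DihedralGroup

theorem card_mdl : Nat.card Mdl = 48 := by
  rw [Nat.card_congr (SemidirectProduct.equivProd (φ := phi)), Nat.card_prod,
    Nat.card_eq_fintype_card, Nat.card_eq_fintype_card, QuaternionGroup.card, DihedralGroup.card]

end Cfsg.Agent.Lib.Helper92.G23
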