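import Mathlib
import Cfsg.Agent.S0016

set_option autoImplicit false

namespace Cfsg.Agent.Lib.Helper92.G23

open QuaternionGroup
open scoped Pointwise

variable {X : Type*} [Group X] [Finite X]

theorem q16_le_sylow {p : ℕ} [Fact p.Prime] (Q : Subgroup X) [hn : Q.Normal] (hQ : IsPGroup p Q)
    (P : Sylow p X) : Q ≤ P := by
  obtain ⟨P', hP'⟩ := hQ.exists_le_sylow
  obtain ⟨g, rfl⟩ := MulAction.exists_smul_eq X P' P
  intro x hx
  change x ∈ (MulAut.conj g • (P' : Subgroup X))
  rw [Subgroup.mem_pointwise_smul_iff_inv_smul_mem]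
  apply hP'
  change (MulAut.conj g)⁻¹ x ∈ Q
  rw [MulAut.conj_inv_apply]
  have := hn.conj_mem x hx g⁻¹
  rwa [inv_inv] at this

theorem q16_dec : ∀ u : QuaternionGroup 2, u * u = 1 → u = 1 ∨ u = a 2 := by decide

theorem q16_isPGroup (Q : Subgroup X) (e : ↥Q ≃* QuaternionGroup 2) : IsPGroup 2 Q := by
  apply IsPGroup.of_card (n := 3)
  rw [Nat.card_congr e.toEquiv, Nat.card_eq_fintype_card, QuaternionGroup.card]
  norm_num

theorem sylow_quat (Q : Subgroup X) [Q.Normal] (e : ↥Q ≃* QuaternionGroup 2)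
    (hcard : Nat.card X = 48) (hinv : ∀ t : X, t * t = 1 → t ∈ Q) (P : Sylow 2 X) :
    Nonempty (↥(P : Subgroup X) ≃* QuaternionGroup 4) := by
  have hQP : Q ≤ P := q16_le_sylow Q (q16_isPGroup Q e) P
  have hP16 : Nat.card (P : Subgroup X) = 16 := by
    rw [P.card_eq_multiplicity, hcard]
    have h8 : (48 : ℕ).factorization 2 = 4 := by
      have : (48 : ℕ) = 2 ^ 4 * 3 := by norm_num
      rw [this, Nat.factorization_mul (by norm_num) (by norm_num), Finsupp.add_apply,
        Nat.Prime.factorization_pow Nat.prime_two, Finsupp.single_eq_same,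
        Nat.factorization_eq_zero_of_not_dvd (by norm_num)]
    rw [h8]; norm_num
  set z : X := ((e.symm (a 2) : Q) : X) with hz
  have hinv2 : ∀ t : X, t * t = 1 → t = 1 ∨ t = z := by
    intro t ht
    have htQ := hinv t ht
    have h1 : e ⟨t, htQ⟩ * e ⟨t, htQ⟩ = 1 := by
      rw [← map_mul]
      have : (⟨t, htQ⟩ : Q) * ⟨t, htQ⟩ = 1 := Subtype.ext ht
      rw [this, map_one]
    rcases q16_dec _ h1 with h2 | h2
    · left
      have : (⟨t, htQ⟩ : Q) = 1 := by
        apply e.injective; rw [h2, map_one]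
      exact congrArg Subtype.val this
    · right
      have : (⟨t, htQ⟩ : Q) = e.symm (a 2) := by
        apply e.injective; rw [h2, e.apply_symm_apply]
      exact congrArg Subtype.val this
  have key : ∀ H : Subgroup (P : Subgroup X), Nat.card H = 2 →
      ∀ x : (P : Subgroup X), x ∈ H ↔ x = 1 ∨ (x : X) = z := by
    intro H hH
    have hfwd : ∀ x : (P : Subgroup X), x ∈ H → x = 1 ∨ (x : X) = z := by
      intro x hx
      have h1 : (⟨x, hx⟩ : H) ^ Nat.card H = 1 := pow_card_eq_one'
      rw [hH] at h1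
      have h2 : (x : X) * (x : X) = 1 := by
        have := congrArg (fun y : H => ((y : (P : Subgroup X)) : X)) h1
        simpa [pow_two] using this
      rcases hinv2 _ h2 with h3 | h3
      · left; exact Subtype.ext h3
      · right; exact h3
    intro x
    refine ⟨hfwd x, ?_⟩
    rintro (rfl | hx)
    · exact H.one_mem
    · obtain ⟨y, hy, _⟩ := (Nat.card_eq_two_iff' (1 : H)).mp hH
      rcases hfwd y y.2 with h3 | h3
      · exact (hy (Subtype.ext h3)).elim
      · have : x = y := Subtype.ext (hx.trans h3.symm)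
        rw [this]; exact y.2
  have huniq : ∀ H K : Subgroup (P : Subgroup X), Nat.card H = 2 → Nat.card K = 2 → H = K := by
    intro H K hH hK
    ext x
    rw [key H hH, key K hK]
  rcases Cfsg.Agent.S0016.result (G := ↥(P : Subgroup X)) 2 P.isPGroup' huniq with hc | ⟨_, n, ⟨E⟩⟩
  · exfalso
    have hcomm : ∀ x y : (P : Subgroup X), x * y = y * x := by
      intro x y
      have := hc.isMulCommutative
      exact mul_comm' x y
    have h1 := hcomm ⟨(e.symm (a 1) : Q), hQP (e.symm (a 1)).2⟩ ⟨(e.symm (xa 0) : Q), hQP (e.symm (xa 0)).2⟩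
    have h2 : e.symm (a 1) * e.symm (xa 0) = e.symm (xa 0) * e.symm (a 1) := by
      apply Subtype.ext
      exact congrArg (fun y : (P : Subgroup X) => (y : X)) h1
    rw [← map_mul, ← map_mul] at h2
    have h3 := e.symm.injective h2
    revert h3
    decide
  · have hne : NeZero (2 ^ n) := ⟨by positivity⟩
    have h1 : Nat.card (QuaternionGroup (2 ^ n)) = 4 * 2 ^ n := by
      rw [Nat.card_eq_fintype_card, QuaternionGroup.card]
    rw [← Nat.card_congr E.toEquiv, hP16] at h1
    have h2 : 2 ^ n = 4 := by omega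
    rw [h2] at E
    exact ⟨E⟩

end Cfsg.Agent.Lib.Helper92.G23
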