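import Mathlib
import Cfsg.Agent.Lib.Helper92.G23.CYC

set_option autoImplicit false

namespace Cfsg.Agent.Lib.Helper92.G23

variable {X : Type*} [Group X] [Finite X]

theorem isPGroup_of_quat (Q : Subgroup X) [Q.Normal] (n : ℕ) (hn : 2 ≤ n)
    (e : ↥Q ≃* QuaternionGroup (2 ^ n)) (hC : Subgroup.centralizer (Q : Set X) ≤ Q) :
    IsPGroup 2 X := by
  have : NeZero (2 ^ n) := ⟨by positivity⟩
  have : NeZero (2 * 2 ^ n) := ⟨by positivity⟩
  have hQp : IsPGroup 2 Q := by
    apply IsPGroup.of_card (n := n + 2)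
    rw [Nat.card_congr e.toEquiv, Nat.card_eq_fintype_card, QuaternionGroup.card]
    ring
  obtain ⟨c0, hc0⟩ : ∃ c0 : Q, c0 = e.symm (QuaternionGroup.a 1) := ⟨_, rfl⟩
  obtain ⟨y0, hy0⟩ : ∃ y0 : Q, y0 = e.symm (QuaternionGroup.xa 0) := ⟨_, rfl⟩
  have hec : e c0 = QuaternionGroup.a 1 := by rw [hc0, e.apply_symm_apply]
  have hey : e y0 = QuaternionGroup.xa 0 := by rw [hy0, e.apply_symm_apply]
  have hF1 : ∀ q : Q, ∃ k : ℕ, q = c0 ^ k ∨ q = y0 * c0 ^ k := by
    intro q
    rcases hq : e q with i | i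
    · refine ⟨i.val, Or.inl ?_⟩
      apply e.injective
      rw [hq, map_pow, hec, QuaternionGroup.a_one_pow, ZMod.natCast_zmod_val]
    · refine ⟨i.val, Or.inr ?_⟩
      apply e.injective
      rw [hq, map_mul, map_pow, hec, hey, QuaternionGroup.a_one_pow, ZMod.natCast_zmod_val,
        QuaternionGroup.xa_mul_a, zero_add]
  have hF2 : orderOf c0 = 2 ^ (n + 1) := by
    rw [← e.orderOf_eq, hec, QuaternionGroup.orderOf_a_one]
    ring
  have hF3 : ∀ k : ℕ, orderOf (y0 * c0 ^ k) = 4 := by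
    intro k
    have h1 : e (y0 * c0 ^ k) = QuaternionGroup.xa k := by
      rw [map_mul, map_pow, hec, hey, QuaternionGroup.a_one_pow, QuaternionGroup.xa_mul_a, zero_add]
    rw [← e.orderOf_eq, h1, QuaternionGroup.orderOf_xa]
  have hF4 : c0 * y0 ≠ y0 * c0 := by
    intro h
    have h1 := congrArg e h
    rw [map_mul, map_mul, hec, hey, QuaternionGroup.a_mul_xa, QuaternionGroup.xa_mul_a] at h1
    have h2 : (0 - 1 : ZMod (2 * 2 ^ n)) = 0 + 1 := by
      injection h1
    have h3 : ((2 : ℕ) : ZMod (2 * 2 ^ n)) = 0 := by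
      have : (2 : ZMod (2 * 2 ^ n)) = (0 + 1) - (0 - 1) := by ring
      rw [Nat.cast_ofNat, this, h2]
      ring
    rw [ZMod.natCast_eq_zero_iff] at h3
    have h4 := Nat.le_of_dvd (by norm_num) h3
    have h5 : 2 ^ 2 ≤ 2 ^ n := Nat.pow_le_pow_right (by norm_num) hn
    omega
  -- transfer to `X`
  obtain ⟨c, hc⟩ : ∃ c : X, c = (c0 : X) := ⟨_, rfl⟩
  obtain ⟨y, hy⟩ : ∃ y : X, y = (y0 : X) := ⟨_, rfl⟩
  have hG1 : ∀ q ∈ Q, ∃ k : ℕ, q = c ^ k ∨ q = y * c ^ k := by
    intro q hq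
    obtain ⟨k, h | h⟩ := hF1 ⟨q, hq⟩
    · refine ⟨k, Or.inl ?_⟩
      have := congrArg Subtype.val h
      rw [hc]
      simpa using this
    · refine ⟨k, Or.inr ?_⟩
      have := congrArg Subtype.val h
      rw [hc, hy]
      simpa using this
  have hG2 : orderOf c = 2 ^ (n + 1) := by
    rw [hc, Subgroup.orderOf_coe, hF2]
  have hG3 : ∀ k : ℕ, orderOf (y * c ^ k) = 4 := by
    intro k
    rw [← hF3 k, ← Subgroup.orderOf_coe, hc, hy]
    rfl
  have hG4 : c * y ≠ y * c := by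
    intro h
    apply hF4
    apply Subtype.ext
    rw [hc, hy] at h
    exact h
  have hcQ : c ∈ Q := hc ▸ c0.2
  have hyQ : y ∈ Q := hy ▸ y0.2
  apply cyc_isPGroup_of_odd
  intro x hx
  have hxc : x * c * x⁻¹ = c := by
    apply comm_of_odd x c (n + 1) hx hG2
    obtain ⟨k, h | h⟩ := hG1 _ ((inferInstance : Q.Normal).conj_mem c hcQ x)
    · rw [h]
      exact Subgroup.npow_mem_zpowers c k
    · exfalso
      have h1 : orderOf (x * c * x⁻¹) = 2 ^ (n + 1) := by
        rw [← hG2]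
        have hs : SemiconjBy x c (x * c * x⁻¹) := by
          unfold SemiconjBy
          group
        exact (SemiconjBy.orderOf_eq x hs).symm
      rw [h, hG3] at h1
      have h5 : 2 ^ 3 ≤ 2 ^ (n + 1) := Nat.pow_le_pow_right (by norm_num) (by omega)
      omega
  have hcomm : Commute x c := by
    have : x * c = c * x := by
      calc x * c = (x * c * x⁻¹) * x := by group
        _ = c * x := by rw [hxc]
    exact this
  obtain ⟨m, hm⟩ : ∃ m : ℕ, x * y * x⁻¹ = y * c ^ m := by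
    obtain ⟨k, h | h⟩ := hG1 _ ((inferInstance : Q.Normal).conj_mem y hyQ x)
    · exfalso
      apply hG4
      have h1 : (x * c * x⁻¹) * (x * y * x⁻¹) = (x * y * x⁻¹) * (x * c * x⁻¹) := by
        rw [hxc, h, ← pow_succ', ← pow_succ]
      have h2 : x * (c * y) * x⁻¹ = x * (y * c) * x⁻¹ := by
        calc x * (c * y) * x⁻¹ = (x * c * x⁻¹) * (x * y * x⁻¹) := by group
          _ = (x * y * x⁻¹) * (x * c * x⁻¹) := h1
          _ = x * (y * c) * x⁻¹ := by group
      exact mul_left_cancel (mul_right_cancel h2)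
    · exact ⟨k, h⟩
  have hpow : ∀ s : ℕ, x ^ s * y * (x ^ s)⁻¹ = y * c ^ (s * m) := by
    intro s
    induction s with
    | zero => simp
    | succ s ih =>
      have h1 : x ^ (s + 1) * y * (x ^ (s + 1))⁻¹ = x * (x ^ s * y * (x ^ s)⁻¹) * x⁻¹ := by
        rw [pow_succ']; group
      have h2 : x * c ^ (s * m) * x⁻¹ = c ^ (s * m) := by
        rw [(hcomm.pow_right (s * m)).eq, mul_inv_cancel_right]
      calc x ^ (s + 1) * y * (x ^ (s + 1))⁻¹ = x * (y * c ^ (s * m)) * x⁻¹ := by rw [h1, ih]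
        _ = (x * y * x⁻¹) * (x * c ^ (s * m) * x⁻¹) := by group
        _ = y * c ^ m * c ^ (s * m) := by rw [hm, h2]
        _ = y * c ^ ((s + 1) * m) := by rw [mul_assoc, ← pow_add]; congr 2; ring
  have hcm : c ^ m = 1 := by
    have h1 := hpow (orderOf x)
    rw [pow_orderOf_eq_one, one_mul, inv_one, mul_one] at h1
    have h2 : c ^ (orderOf x * m) = 1 := by
      have : y * 1 = y * c ^ (orderOf x * m) := by rw [mul_one]; exact h1
      exact (mul_left_cancel this).symm
    have h3 := orderOf_dvd_of_pow_eq_one h2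
    rw [hG2] at h3
    have h4 : Nat.Coprime (2 ^ (n + 1)) (orderOf x) :=
      Nat.Coprime.pow_left _ (Nat.coprime_two_left.mpr hx)
    have h5 := h4.dvd_of_dvd_mul_left h3
    rw [← hG2] at h5
    exact orderOf_dvd_iff_pow_eq_one.1 h5
  have hcommy : Commute x y := by
    have : x * y = y * x := by
      calc x * y = (x * y * x⁻¹) * x := by group
        _ = y * x := by rw [hm, hcm, mul_one]
    exact this
  have hxC : x ∈ Subgroup.centralizer (Q : Set X) := by
    rw [Subgroup.mem_centralizer_iff]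
    intro q hq
    obtain ⟨k, h | h⟩ := hG1 q hq
    · rw [h]
      exact (hcomm.pow_right k).eq.symm
    · rw [h]
      exact (hcommy.mul_right (hcomm.pow_right k)).eq.symm
  exact cyc_eq_one_of_mem hQp (hC hxC) hx

end Cfsg.Agent.Lib.Helper92.G23
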