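import Mathlib
import Cfsg.Agent.Lib.Helper71.Q8Act
import Cfsg.Agent.Lib.Helper92.G23.Defs

set_option autoImplicit false

namespace Cfsg.Agent.Lib.Helper92.G23

variable {X : Type*} [Group X]

/-- the relations not involving `t` -/
structure Rel0 (i j r : X) : Prop where
  hi : orderOf i = 4
  hj : j * j = i ^ 2
  hji : j * i * j⁻¹ = i⁻¹
  hri : r * i * r⁻¹ = j
  hrj : r * j * r⁻¹ = i * j

theorem rel_orderOf_conj (r i : X) : orderOf (r * i * r⁻¹) = orderOf i :=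
  (MulAut.conj r).orderOf_eq i

theorem Rel0.shift {i j r : X} (h : Rel0 i j r) : Rel0 j (i * j) r where
  hi := by rw [← h.hri, rel_orderOf_conj, h.hi]
  hj := by
    have h1 : r * (j * j) * r⁻¹ = r * (i ^ 2) * r⁻¹ := by rw [h.hj]
    have h2 : r * (j * j) * r⁻¹ = (r * j * r⁻¹) * (r * j * r⁻¹) := by group
    have h3 : r * (i ^ 2) * r⁻¹ = (r * i * r⁻¹) ^ 2 := conj_pow.symm
    rw [h2, h3, h.hrj, h.hri] at h1
    exact h1
  hji := by
    have h1 : r * (j * i * j⁻¹) * r⁻¹ = r * i⁻¹ * r⁻¹ := by rw [h.hji]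
    have h2 : r * (j * i * j⁻¹) * r⁻¹ = (r * j * r⁻¹) * (r * i * r⁻¹) * (r * j * r⁻¹)⁻¹ := by group
    have h3 : r * i⁻¹ * r⁻¹ = (r * i * r⁻¹)⁻¹ := by group
    rw [h2, h3, h.hrj, h.hri] at h1
    exact h1
  hri := h.hrj
  hrj := by
    have h2 : r * (i * j) * r⁻¹ = (r * i * r⁻¹) * (r * j * r⁻¹) := by group
    rw [h2, h.hri, h.hrj]

theorem Rel0.sq_ne {i j r : X} (h : Rel0 i j r) : i ^ 2 ≠ 1 := by
  intro h3
  have h4 := orderOf_dvd_of_pow_eq_one h3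
  rw [h.hi] at h4
  omega

theorem Rel0.pow_four {i j r : X} (h : Rel0 i j r) : i ^ 4 = 1 := by
  rw [← h.hi]; exact pow_orderOf_eq_one i

/-- `j * (i * j) = i` -/
theorem Rel0.jk {i j r : X} (h : Rel0 i j r) : j * (i * j) = i := by
  calc j * (i * j) = (j * i * j⁻¹) * (j * j) := by group
    _ = i⁻¹ * i ^ 2 := by rw [h.hji, h.hj]
    _ = i := by group

theorem Rel0.shift2 {i j r : X} (h : Rel0 i j r) : Rel0 (i * j) i r := by
  have := h.shift.shift
  rwa [h.jk] at this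

theorem Rel0.rk {i j r : X} (h : Rel0 i j r) : r * (i * j) * r⁻¹ = i := h.shift2.hri

theorem exists_rel (Q : Subgroup X) [hQn : Q.Normal] (e : ↥Q ≃* QuaternionGroup 2)
    (hC : Subgroup.centralizer (Q : Set X) ≤ Q) (r t : X) (hr : r ^ 3 = 1) (hr1 : r ≠ 1)
    (ht : t * t = 1) (htr : t * r * t⁻¹ = r⁻¹) : ∃ i j : X, Rel i j r t := by
  have hrQ : r ∉ Q := by
    intro hrQ
    have h1 : (⟨r, hrQ⟩ : Q) ^ 8 = 1 := by
      have h2 : Nat.card Q = 8 := by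
        rw [Nat.card_congr e.toEquiv, Nat.card_eq_fintype_card, QuaternionGroup.card]
      rw [← h2]
      have : Finite Q := Nat.finite_of_card_ne_zero (by rw [h2]; norm_num)
      exact pow_card_eq_one'
    have h2 : r ^ 8 = 1 := by
      have := congrArg Subtype.val h1
      simpa using this
    apply hr1
    calc r = (r ^ 3) ^ 3 * (r ^ 8)⁻¹ := by group
      _ = 1 := by rw [hr, h2]; simp
  have hnc : ∃ u ∈ Q, r * u * r⁻¹ ≠ u := by
    by_contra hcon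
    push Not at hcon
    apply hrQ
    apply hC
    rw [Subgroup.mem_centralizer_iff]
    intro u hu
    calc u * r = (r * u * r⁻¹) * r := by rw [hcon u hu]
      _ = r * u := by group
  obtain ⟨i, j, hiQ, hjQ, hi, hj, hji, -, hri, hrj, hlist, hlist2⟩ :=
    Cfsg.Agent.Lib.Helper71.q8_action Q e r (fun u hu => hQn.conj_mem u hu r) 3 (by decide) hr hnc
  have h0 : Rel0 i j r := ⟨hi, hj, hji, hri, hrj⟩
  obtain ⟨x, hx⟩ : ∃ x, x = t * i * t⁻¹ := ⟨_, rfl⟩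
  have hxQ : x ∈ Q := hx ▸ hQn.conj_mem i hiQ t
  have hrinv : ∀ y : X, t * (r * y * r⁻¹) * t⁻¹ = r⁻¹ * (t * y * t⁻¹) * r := by
    intro y
    calc t * (r * y * r⁻¹) * t⁻¹ = (t * r * t⁻¹) * (t * y * t⁻¹) * (t * r * t⁻¹)⁻¹ := by group
      _ = r⁻¹ * (t * y * t⁻¹) * r := by rw [htr, inv_inv]
  have htj : t * j * t⁻¹ = r⁻¹ * x * r := by rw [← hri, hrinv, hx]
  have hr2 : r⁻¹ * r⁻¹ = r := by
    calc r⁻¹ * r⁻¹ = r ^ 3 * (r⁻¹ * r⁻¹) := by rw [hr, one_mul]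
      _ = r := by group
  have htk : t * (i * j) * t⁻¹ = r * x * r⁻¹ := by
    rw [← hrj, hrinv, htj]
    calc r⁻¹ * (r⁻¹ * x * r) * r = (r⁻¹ * r⁻¹) * x * (r⁻¹ * r⁻¹)⁻¹ := by
          simp only [mul_inv_rev, inv_inv, mul_assoc]
      _ = r * x * r⁻¹ := by rw [hr2]
  have hkey : x * (r⁻¹ * x * r) = r * x * r⁻¹ := by
    rw [← htk, ← htj, hx]; group
  -- inverse conjugations
  have hri' : r⁻¹ * j * r = i := by rw [← hri]; group
  have hrj' : r⁻¹ * (i * j) * r = j := by rw [← hrj]; group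
  have hrk' : r⁻¹ * i * r = i * j := by
    conv_lhs => rw [← h0.rk]
    group
  have hxx : x * x = i ^ 2 := by
    have h1 : x * x = t * (i ^ 2) * t⁻¹ := by
      rw [hx, pow_two]; simp only [mul_assoc, inv_mul_cancel_left]
    have h2 : t * (i ^ 2) * t⁻¹ ∈ Q := hQn.conj_mem _ (Q.pow_mem hiQ 2) t
    rw [h1]
    rcases hlist2 _ h2 with h3 | h3 | h3
    · exfalso
      apply h0.sq_ne
      calc i ^ 2 = t⁻¹ * (t * i ^ 2 * t⁻¹) * t := by group
        _ = 1 := by rw [h3]; group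
    · exact h3
    · exfalso
      apply h0.sq_ne
      rw [← h3]
      calc t * i ^ 2 * t⁻¹ * (t * i ^ 2 * t⁻¹) = t * i ^ 4 * t⁻¹ := by group
        _ = 1 := by rw [h0.pow_four]; group
  rcases hlist x hxQ hxx with h | h | h | h | h | h
  · -- x = i
    exfalso
    rw [h, hrk', hri] at hkey
    apply h0.sq_ne
    calc i ^ 2 = (i * (i * j)) * j⁻¹ := by
          rw [pow_two]; simp only [mul_assoc, mul_inv_cancel, mul_one]
      _ = 1 := by rw [hkey]; group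
  · -- x = i⁻¹ : (j, k)
    refine ⟨j, i * j, ?_⟩
    have h1 := h0.shift
    refine ⟨h1.hi, h1.hj, h1.hji, hr, h1.hri, h1.hrj, ht, htr, ?_⟩
    rw [htj, h, ← hrk']; group
  · -- x = j
    exfalso
    rw [h, hri', hrj] at hkey
    apply h0.sq_ne
    have h2 : i = i⁻¹ := by
      calc i = (i * j) * j⁻¹ := by simp only [mul_assoc, mul_inv_cancel, mul_one]
        _ = (j * i) * j⁻¹ := by rw [hkey]
        _ = i⁻¹ := hji
    calc i ^ 2 = i * i := pow_two i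
      _ = i⁻¹ * i := by nth_rewrite 1 [h2]; rfl
      _ = 1 := inv_mul_cancel i
  · -- x = j⁻¹
    exact ⟨i, j, hi, hj, hji, hr, hri, hrj, ht, htr, hx ▸ h⟩
  · -- x = i * j
    exfalso
    rw [h, hrj', h0.rk] at hkey
    apply h0.sq_ne
    have h3 : i * j * j = i * i ^ 2 := by rw [mul_assoc, hj]
    rw [h3] at hkey
    calc i ^ 2 = i⁻¹ * (i * i ^ 2) := by group
      _ = 1 := by rw [hkey]; group
  · -- x = (i * j)⁻¹ : (k, i)
    refine ⟨i * j, i, ?_⟩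
    have h1 := h0.shift2
    refine ⟨h1.hi, h1.hj, h1.hji, hr, h1.hri, h1.hrj, ht, htr, ?_⟩
    rw [htk, h]
    calc r * (i * j)⁻¹ * r⁻¹ = (r * (i * j) * r⁻¹)⁻¹ := by group
      _ = i⁻¹ := by rw [h0.rk]

end Cfsg.Agent.Lib.Helper92.G23
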