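import Mathlib
import Cfsg.Prelude.Def_CaseTheorems
import Cfsg.Agent.S0016
import Cfsg.Agent.Lib.Helper40.Cores

set_option autoImplicit false

namespace Cfsg.Agent.Lib.Helper92.G23

variable {X : Type*} [Group X] [Finite X]

theorem uniq_key (Q : Subgroup X) (z : X) (hz : z ∈ Q) (hz2 : z ^ 2 = 1) (hz1 : z ≠ 1)
    (hall : ∀ h ∈ Q, h ^ 2 = 1 → h ≠ 1 → h = z) (H : Subgroup Q) (hH : Nat.card H = 2) :
    H = Subgroup.zpowers (⟨z, hz⟩ : Q) := by
  have hne : H ≠ ⊥ := by
    rw [← Subgroup.one_lt_card_iff_ne_bot, hH]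
    norm_num
  obtain ⟨a, ha1⟩ := (Subgroup.ne_bot_iff_exists_ne_one).1 hne
  have ha2 : a ^ 2 = 1 := by
    rw [← hH]
    exact pow_card_eq_one'
  have e1 : ((a : Q) : X) = z := by
    apply hall _ (a : Q).2
    · have := congrArg (fun y : H => ((y : Q) : X)) ha2
      simpa using this
    · intro h
      apply ha1
      apply Subtype.ext
      apply Subtype.ext
      exact h
  have e2 : (a : Q) = ⟨z, hz⟩ := Subtype.ext e1
  have hle : Subgroup.zpowers (⟨z, hz⟩ : Q) ≤ H := by
    rw [Subgroup.zpowers_le, ← e2]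
    exact a.2
  symm
  apply Subgroup.eq_of_le_of_card_ge hle
  rw [hH, Nat.card_zpowers]
  have : orderOf (⟨z, hz⟩ : Q) = 2 := by
    apply orderOf_eq_prime
    · exact Subtype.ext hz2
    · intro h
      exact hz1 (congrArg Subtype.val h)
  rw [this]

/-- [UNIQ] -/
theorem cyc_or_quat
    (hR : ∀ P₁ P₂ : Sylow 2 X, P₁ ≠ P₂ → ∀ A : Subgroup X, A ≤ P₁ → A ≤ P₂ →
      (∀ a ∈ A, ∀ b ∈ A, a * b = b * a) → (∀ a ∈ A, a ^ 2 = 1) → Nat.card A ≤ 2)
    (hn : ¬ ∃ P : Sylow 2 X, (P : Subgroup X).Normal) :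
    IsCyclic ↥(Cfsg.pCore 2 X) ∨ ∃ n : ℕ, Nonempty (↥(Cfsg.pCore 2 X) ≃* QuaternionGroup (2 ^ n)) := by
  have hfact : Fact (Nat.Prime 2) := ⟨Nat.prime_two⟩
  have hQp : IsPGroup 2 (Cfsg.pCore 2 X) := Cfsg.Agent.Lib.Helper40.isPGroup_pCore 2 X
  obtain ⟨P₁, P₂, h12⟩ : ∃ P₁ P₂ : Sylow 2 X, P₁ ≠ P₂ := by
    by_contra hcon
    push Not at hcon
    have : Subsingleton (Sylow 2 X) := ⟨hcon⟩
    exact hn ⟨default, Sylow.normal_of_subsingleton _⟩
  have hQle : ∀ P : Sylow 2 X, Cfsg.pCore 2 X ≤ P := fun P => hQp.le_sylow_of_normal P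
  have huniq : ∀ H K : Subgroup (Cfsg.pCore 2 X), Nat.card H = 2 → Nat.card K = 2 → H = K := by
    intro H K hH hK
    have hnt : Nontrivial (Cfsg.pCore 2 X) := by
      by_contra hcon
      rw [not_nontrivial_iff_subsingleton] at hcon
      have : Nat.card H ≤ 1 := Finite.card_le_one_iff_subsingleton.2 inferInstance
      omega
    have hcn : Nontrivial (Subgroup.center (Cfsg.pCore 2 X)) := hQp.center_nontrivial
    have h2 : 2 ∣ Nat.card (Subgroup.center (Cfsg.pCore 2 X)) := by
      obtain ⟨k, hk⟩ := (hQp.to_subgroup (Subgroup.center (Cfsg.pCore 2 X))).exists_card_eq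
      rcases k with _ | k
      · exfalso
        have h1 := Finite.one_lt_card (α := Subgroup.center (Cfsg.pCore 2 X))
        rw [hk] at h1
        norm_num at h1
      · rw [hk, pow_succ]
        exact Dvd.intro_left _ rfl
    obtain ⟨z0, hz0⟩ :=
      exists_prime_orderOf_dvd_card' (G := Subgroup.center (Cfsg.pCore 2 X)) 2 h2
    obtain ⟨z, hzdef⟩ : ∃ z : X, z = ((z0 : Cfsg.pCore 2 X) : X) := ⟨_, rfl⟩
    have hzQ : z ∈ Cfsg.pCore 2 X := hzdef ▸ (z0 : Cfsg.pCore 2 X).2
    have hz2 : z ^ 2 = 1 := by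
      have h1 : z0 ^ 2 = 1 := by
        have h0 := pow_orderOf_eq_one z0
        rwa [hz0] at h0
      have := congrArg (fun y : Subgroup.center (Cfsg.pCore 2 X) => ((y : Cfsg.pCore 2 X) : X)) h1
      rw [hzdef]
      simpa using this
    have hz1 : z ≠ 1 := by
      intro h
      have : z0 = 1 := by
        apply Subtype.ext
        apply Subtype.ext
        rw [← hzdef, h]
        rfl
      rw [this, orderOf_one] at hz0
      norm_num at hz0
    have hzc : ∀ h ∈ Cfsg.pCore 2 X, h * z = z * h := by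
      intro h hh
      have := Subgroup.mem_center_iff.1 z0.2 ⟨h, hh⟩
      have := congrArg Subtype.val this
      rw [hzdef]
      exact this
    have hall : ∀ h ∈ Cfsg.pCore 2 X, h ^ 2 = 1 → h ≠ 1 → h = z := by
      intro h hh hh2 hh1
      by_contra hne
      have hcomm0 : ∀ x ∈ ({h, z} : Set X), ∀ y ∈ ({h, z} : Set X), x * y = y * x := by
        rintro x (rfl | rfl) y (rfl | rfl)
        · rfl
        · exact hzc _ hh
        · exact (hzc _ hh).symm
        · rfl
      have hAQ : Subgroup.closure ({h, z} : Set X) ≤ Cfsg.pCore 2 X := by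
        rw [Subgroup.closure_le]
        rintro x (rfl | rfl)
        · exact hh
        · exact hzQ
      have hAc : ∀ a ∈ Subgroup.closure ({h, z} : Set X),
          ∀ b ∈ Subgroup.closure ({h, z} : Set X), a * b = b * a := by
        intro a ha b hb
        have := (Subgroup.closureCommGroupOfComm hcomm0).mul_comm ⟨a, ha⟩ ⟨b, hb⟩
        exact congrArg Subtype.val this
      have hAe : ∀ a ∈ Subgroup.closure ({h, z} : Set X), a ^ 2 = 1 := by
        intro a ha
        induction ha using Subgroup.closure_induction with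
        | mem x hx =>
          rcases hx with rfl | rfl
          · exact hh2
          · exact hz2
        | one => simp
        | mul x y hx hy ihx ihy =>
          rw [(show Commute x y from hAc x hx y hy).mul_pow 2, ihx, ihy, one_mul]
        | inv x hx ih => rw [inv_pow, ih, inv_one]
      have hcard := hR P₁ P₂ h12 _ (hAQ.trans (hQle P₁)) (hAQ.trans (hQle P₂)) hAc hAe
      have hle : Subgroup.zpowers z ≤ Subgroup.closure ({h, z} : Set X) := by
        rw [Subgroup.zpowers_le]
        exact Subgroup.subset_closure (by simp)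
      have hoz : orderOf z = 2 := orderOf_eq_prime hz2 hz1
      have heq := Subgroup.eq_of_le_of_card_ge hle (by rw [Nat.card_zpowers, hoz]; exact hcard)
      have hmem : h ∈ Subgroup.zpowers z := by
        rw [heq]
        exact Subgroup.subset_closure (by simp)
      obtain ⟨k, hk⟩ := Subgroup.mem_zpowers_iff.1 hmem
      have hz2' : z ^ (2 : ℤ) = 1 := by exact_mod_cast hz2
      rcases Int.even_or_odd' k with ⟨m, rfl | rfl⟩
      · apply hh1
        rw [← hk, zpow_mul, hz2', one_zpow]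
      · apply hne
        rw [← hk, zpow_add_one, zpow_mul, hz2', one_zpow, one_mul]
    rw [uniq_key _ z hzQ hz2 hz1 hall H hH, uniq_key _ z hzQ hz2 hz1 hall K hK]
  rcases Cfsg.Agent.S0016.result (G := ↥(Cfsg.pCore 2 X)) 2 hQp huniq with h | ⟨-, h⟩
  · exact Or.inl h
  · exact Or.inr h

end Cfsg.Agent.Lib.Helper92.G23
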