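import Mathlib
import Cfsg.Agent.Lib.Helper92.G23.Defs
import Cfsg.Agent.Lib.Helper92.G23.LIFT
import Cfsg.Agent.Lib.Helper92.G23.UNIQ
import Cfsg.Agent.Lib.Helper92.G23.CYC
import Cfsg.Agent.Lib.Helper92.G23.QBIG
import Cfsg.Agent.Lib.Helper92.G23.AUT
import Cfsg.Agent.Lib.Helper92.G23.C48
import Cfsg.Agent.Lib.Helper92.G23.CEN
import Cfsg.Agent.Lib.Helper92.G23.Q16
import Cfsg.Agent.Lib.Helper92.G23.ELT
import Cfsg.Agent.Lib.Helper92.G23.REL
import Cfsg.Agent.Lib.Helper92.G23.COVER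
import Cfsg.Agent.Lib.Helper92.G23.INJ
import Cfsg.Agent.Lib.Helper92.G23.GLI
import Cfsg.Agent.Lib.Helper92.G23.MCARD

set_option autoImplicit false

namespace Cfsg.Agent.Lib.Helper92.G23

open QuaternionGroup DihedralGroup

variable {X : Type*} [Group X] [Finite X]

/-! ## ASSEMBLY (helper92) -/

theorem equiv_mdl {Γ : Type*} [Group Γ] [Finite Γ] (hcard : Nat.card Γ = 48) (i j r t : Γ)
    (h : Rel i j r t) : Nonempty (Mdl ≃* Γ) := by
  obtain ⟨F, ψ, Θ, hF, hΘ, hc⟩ := cover i j r t h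
  have hinj := theta_injective F ψ Θ hF hΘ hc
  have : Finite Mdl := Nat.finite_of_card_ne_zero (by rw [card_mdl]; norm_num)
  have hbij : Function.Bijective Θ :=
    (Nat.bijective_iff_injective_and_card Θ).mpr ⟨hinj, by rw [card_mdl, hcard]⟩
  exact ⟨MulEquiv.ofBijective Θ hbij⟩

theorem rec_GL23 (hcard : Nat.card X = 48) (i j r t : X) (h : Rel i j r t) :
    Nonempty (X ≃* GL (Fin 2) (ZMod 3)) := by
  obtain ⟨e1⟩ := equiv_mdl hcard i j r t h
  obtain ⟨hc, i', j', r', t', h'⟩ := gl_inst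
  obtain ⟨e2⟩ := equiv_mdl hc i' j' r' t' h'
  exact ⟨e1.symm.trans e2⟩

theorem main_X (hC : Subgroup.centralizer (Cfsg.pCore 2 X : Set X) ≤ Cfsg.pCore 2 X)
    (hQn : (Cfsg.pCore 2 X).Normal) (hQp : IsPGroup 2 (Cfsg.pCore 2 X))
    (hR : ∀ P₁ P₂ : Sylow 2 X, P₁ ≠ P₂ → ∀ A : Subgroup X, A ≤ P₁ → A ≤ P₂ →
      (∀ a ∈ A, ∀ b ∈ A, a * b = b * a) → (∀ a ∈ A, a ^ 2 = 1) → Nat.card A ≤ 2) :
    (∃ P : Sylow 2 X, (P : Subgroup X).Normal) ∨
    Nonempty (X ≃* GL (Fin 2) (ZMod 3)) ∨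
    (Nat.card X = 48 ∧ Nat.card ↥(Subgroup.center X) = 2 ∧
      Nonempty (X ⧸ Subgroup.center X ≃* Equiv.Perm (Fin 4)) ∧
      ∀ P : Sylow 2 X, Nonempty (↥(P : Subgroup X) ≃* QuaternionGroup 4)) := by
  by_cases hn : ∃ P : Sylow 2 X, (P : Subgroup X).Normal
  · exact Or.inl hn
  right
  have h2 : ∀ hX : IsPGroup 2 X, False := by
    intro hX
    apply hn
    obtain ⟨P⟩ : Nonempty (Sylow 2 X) := inferInstance
    refine ⟨P, ?_⟩
    have : (P : Subgroup X) = ⊤ := by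
      have h1 := P.is_maximal' (Q := ⊤) (hX.of_equiv Subgroup.topEquiv.symm) le_top
      exact h1.symm
    rw [this]
    infer_instance
  rcases cyc_or_quat hR hn with hcyc | ⟨n, ⟨e⟩⟩
  · exact (h2 (isPGroup_of_cyclic _ hQp hcyc hC)).elim
  rcases Nat.lt_or_ge n 2 with hn2 | hn2
  swap
  · exact (h2 (isPGroup_of_quat _ n hn2 e hC)).elim
  interval_cases n
  · exfalso
    have hc1 : IsCyclic (QuaternionGroup (2 ^ 0)) := QuaternionGroup.quaternionGroup_one_isCyclic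
    have hcyc : IsCyclic ↥(Cfsg.pCore 2 X) := isCyclic_of_surjective e.symm e.symm.surjective
    exact h2 (isPGroup_of_cyclic _ hQp hcyc hC)
  · have e' : ↥(Cfsg.pCore 2 X) ≃* QuaternionGroup 2 := e
    obtain ⟨f, hker, hk2⟩ := exists_hom_S4 _ e' hC
    obtain ⟨hcard, hf⟩ := card_48 _ e' f hk2 hn
    obtain ⟨hcen, hS4⟩ := center_S4 f hf hk2
    by_cases hinv : ∀ t : X, t * t = 1 → t ∈ Cfsg.pCore 2 X
    · right
      exact ⟨hcard, by rw [hcen]; exact hk2, hS4, fun P => sylow_quat _ e' hcard hinv P⟩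
    · left
      push Not at hinv
      obtain ⟨t, ht, htQ⟩ := hinv
      obtain ⟨r, hr, hr1, htr⟩ := exists_inverted _ e' f hf hker hk2 t ht htQ
      obtain ⟨i, j, hrel⟩ := exists_rel _ e' hC r t hr hr1 ht htr
      exact rec_GL23 hcard i j r t hrel

end Cfsg.Agent.Lib.Helper92.G23
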